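import Mathlib
import Cfsg.Agent.Lib.LargeExtra.Pair
import Cfsg.Agent.Lib.Core.Basic
import Cfsg.Agent.Lib.PGroups.Basic
import Cfsg.Prelude.Def_Transfer
import Cfsg.Prelude.Def_Solvable

/-!
More elementwise facts on large extraspecial subgroups (`LX`).
-/

set_option autoImplicit false
set_option linter.unusedSectionVars false
set_option linter.unusedVariables false
set_option linter.style.longLine false
set_option linter.unusedSimpArgs false
set_option linter.unnecessarySimpa false

namespace Cfsg.Agent.Lib.LocalStruct.LxExtra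

open Cfsg.Agent.Lib.LargeExtra.Basic Cfsg.Agent.Lib.LargeExtra.Pair

variable {G : Type*} [Group G]

/-- From the statement's hypotheses, `LX`. -/
theorem lx_of_qq [Finite G] {z : G} (hz : orderOf z = 2) (hext : Cfsg.IsExtraspecial 2 ↥(QQ z))
    (hcent : Subgroup.centralizer ((QQ z : Subgroup G) : Set G) ≤ QQ z) : LX z (QQ z) := by
  have hS := settingAt_of_extraspecial hz hext
  have hcenter : ∀ a : ↥(QQ z), a ∈ Subgroup.center ↥(QQ z) → (a : G) = 1 ∨ (a : G) = z := by
    intro a ha
    apply hS.rad a a.2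
    intro b hb
    have := Subgroup.mem_center_iff.1 ha ⟨b, hb⟩
    exact (congrArg Subtype.val this).symm
  haveI hF : Fact (Nat.Prime 2) := ⟨Nat.prime_two⟩
  refine ⟨hS, ?_, ?_, ?_⟩
  · intro a ha
    have h1 := Cfsg.Agent.Lib.PGroups.Basic.pow_mem_frattini hext.1.1 (⟨a, ha⟩ : ↥(QQ z))
    rw [hext.1.2.1] at h1
    have h2 := hcenter _ h1
    simpa [pow_two] using h2
  · intro x hx
    have h1 : x ∈ Subgroup.centralizer ((QQ z : Subgroup G) : Set G) := by
      rw [Subgroup.mem_centralizer_iff]
      intro a ha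
      exact (hx a ha).symm
    exact hS.rad x (hcent h1) (fun b hb => hx b hb)
  · rintro x hx _ ⟨a, ha, rfl⟩
    have hxc : x ∈ Subgroup.centralizer ({z} : Set G) := by
      rw [Subgroup.mem_centralizer_iff]
      intro h hh
      rw [Set.mem_singleton_iff] at hh
      rw [hh]
      exact hx.symm
    haveI : (Cfsg.pCore 2 ↥(Subgroup.centralizer ({z} : Set G))).Normal := inferInstance
    have h2 := (inferInstance : (Cfsg.pCore 2 ↥(Subgroup.centralizer ({z} : Set G))).Normal).conj_mem a ha ⟨x, hxc⟩
    exact ⟨_, h2, rfl⟩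

/-- An element commuting with the centralizer in `E` of `u`. -/
theorem mem_of_comm_cent [Finite G] {z : G} {E : Subgroup G} (h : LX z E) {u r : G} (hu : u ∈ E) (huu : u * u = 1)
    (hr : r ∈ E) (hc : ∀ p ∈ E, p * u = u * p → r * p = p * r) : r = 1 ∨ r = z ∨ r = u ∨ r = z * u := by
  have hzz := h.sq
  have hzu : z * u = u * z := (h.central u hu).symm
  have hmem := mem_closure_pair hzz huu hzu
  by_contra hcon
  have hrY : r ∉ Subgroup.closure ({z, u} : Set G) := by
    rw [hmem]; exact hcon
  have hYE : Subgroup.closure ({z, u} : Set G) ≤ E := by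
    rw [Subgroup.closure_le]
    rintro _ (rfl | rfl)
    · exact h.mem
    · exact hu
  obtain ⟨q, hq, hq1, hq2⟩ := h.toSettingAt.exists_centralizing _ hYE
    (Subgroup.subset_closure (by simp)) hr hrY
  have h1 := hc q hq (hq1 u (Subgroup.subset_closure (by simp)))
  have h2 : q * r * q⁻¹ = r := by rw [← h1]; group
  rw [h2] at hq2
  apply h.ne_one
  have h3 : z * r * r⁻¹ = r * r⁻¹ := by rw [← hq2]
  simpa using h3

/-- An element of `C(z)` centralizing `C_E(u)` lies in `⟨z, u⟩`, for a noncentral involution `u ∈ E`. -/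
theorem centralizer_cent [Finite G] {z : G} {E : Subgroup G} (h : LX z E) {u : G} (hu : u ∈ E) (huu : u * u = 1)
    (hu1 : u ≠ 1) (huz : u ≠ z) {y : G} (hyz : y * z = z * y) (hyc : ∀ p ∈ E, p * u = u * p → y * p = p * y) :
    y = 1 ∨ y = z ∨ y = u ∨ y = z * u := by
  have hzz := h.sq
  have hz1 := h.ne_one
  have hzi : z⁻¹ = z := inv_eq_of_mul_eq_one_left hzz
  have hui : u⁻¹ = u := inv_eq_of_mul_eq_one_left huu
  have hzc := h.central
  obtain ⟨c, hc, hcu⟩ := h.exists_comm hu hu1 huz
  have hcu' : c * u = u * c → False := by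
    intro h1
    have h2 : c * u * c⁻¹ = u := by rw [h1]; group
    rw [h2] at hcu
    apply hz1
    have h3 : z * u * u⁻¹ = u * u⁻¹ := by rw [← hcu]
    simpa using h3
  have hc' : y * c * y⁻¹ ∈ E := h.norm y hyz c hc
  set r := y * c * y⁻¹ * c⁻¹ with hr
  have hrE : r ∈ E := mul_mem hc' (inv_mem hc)
  have hcyr : y * c * y⁻¹ = r * c := by rw [hr]; group
  -- `r` commutes with the centralizer
  have hrc : ∀ p ∈ E, p * u = u * p → r * p = p * r := by
    intro p hp hpu
    have hyp := hyc p hp hpu
    have hyp' : p⁻¹ * y = y * p⁻¹ := (show Commute y p from hyp).inv_right.eq.symm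
    have hzr : r * z = z * r := hzc r hrE
    have e : p * (y * c * y⁻¹) * p⁻¹ = y * (p * c * p⁻¹) * y⁻¹ := by
      have h1 : p * y = y * p := hyp.symm
      have h2 : y⁻¹ * p⁻¹ = p⁻¹ * y⁻¹ := by
        have := (show Commute y p from hyp).inv_inv.eq
        exact this
      calc p * (y * c * y⁻¹) * p⁻¹ = (p * y) * c * (y⁻¹ * p⁻¹) := by group
        _ = (y * p) * c * (p⁻¹ * y⁻¹) := by rw [h1, h2]
        _ = _ := by group
    rcases h.act hp hc with h1 | h1
    · -- `p` commutes with `c`
      rw [h1] at e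
      have h2 : p * r * p⁻¹ = r := by
        rw [hr]
        have h3 : p * c⁻¹ * p⁻¹ = c⁻¹ := by
          have : p * c * p⁻¹ * (p * c⁻¹ * p⁻¹) = 1 := by group
          rw [h1] at this
          exact (inv_eq_of_mul_eq_one_right this).symm
        calc p * (y * c * y⁻¹ * c⁻¹) * p⁻¹ = (p * (y * c * y⁻¹) * p⁻¹) * (p * c⁻¹ * p⁻¹) := by group
          _ = _ := by rw [e, h3]
      calc r * p = (p * r * p⁻¹) * p := by rw [h2]
        _ = p * r := by group
    · -- `p c p⁻¹ = z c`
      rw [h1] at e
      have hyzc : y * (z * c) * y⁻¹ = z * (y * c * y⁻¹) := by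
        calc y * (z * c) * y⁻¹ = (y * z) * c * y⁻¹ := by group
          _ = (z * y) * c * y⁻¹ := by rw [hyz]
          _ = _ := by group
      rw [hyzc] at e
      have h3 : p * c⁻¹ * p⁻¹ = c⁻¹ * z := by
        have : p * c * p⁻¹ * (p * c⁻¹ * p⁻¹) = 1 := by group
        rw [h1] at this
        have h4 := eq_inv_of_mul_eq_one_right this
        rw [h4, mul_inv_rev, hzi]
      have h2 : p * r * p⁻¹ = r := by
        calc p * r * p⁻¹ = (p * (y * c * y⁻¹) * p⁻¹) * (p * c⁻¹ * p⁻¹) := by rw [hr]; group
          _ = z * (y * c * y⁻¹) * (c⁻¹ * z) := by rw [e, h3]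
          _ = z * r * z := by rw [hr]; group
          _ = r * z * z := by rw [hzr]
          _ = r := by rw [mul_assoc, hzz, mul_one]
      calc r * p = (p * r * p⁻¹) * p := by rw [h2]
        _ = p * r := by group
  have hr4 := mem_of_comm_cent h hu huu hrE hrc
  -- squares
  have hcc : y * (c * c) * y⁻¹ = c * c := by
    rcases h.sq_mem c hc with h1 | h1
    · rw [h1]; group
    · rw [h1, hyz]; group
  have hsq : (r * c) * (r * c) = c * c := by
    rw [← hcyr]
    calc y * c * y⁻¹ * (y * c * y⁻¹) = y * (c * c) * y⁻¹ := by group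
      _ = c * c := hcc
  have hcz : c * z = z * c := hzc c hc
  have hr12 : r = 1 ∨ r = z := by
    rcases hr4 with h1 | h1 | h1 | h1
    · exact Or.inl h1
    · exact Or.inr h1
    · exfalso
      rw [h1] at hsq
      have h2 : u * c * (u * c) = z * (c * c) := by
        calc u * c * (u * c) = u * (c * u * c⁻¹) * (c * c) := by group
          _ = u * (z * u) * (c * c) := by rw [hcu]
          _ = (u * z) * u * (c * c) := by group
          _ = (z * u) * u * (c * c) := by rw [← h.central u hu]
          _ = z * (u * u) * (c * c) := by group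
          _ = _ := by rw [huu, mul_one]
      rw [h2] at hsq
      apply hz1
      exact mul_right_cancel (b := c * c) (by rw [hsq, one_mul])
    · exfalso
      rw [h1] at hsq
      have h2 : z * u * c * (z * u * c) = z * (c * c) := by
        calc z * u * c * (z * u * c) = z * u * (c * z) * u * c := by group
          _ = z * u * (z * c) * u * c := by rw [hcz]
          _ = z * (u * z) * c * u * c := by group
          _ = z * (z * u) * c * u * c := by rw [← h.central u hu]
          _ = (z * z) * u * c * u * c := by group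
          _ = u * (c * u * c⁻¹) * (c * c) := by rw [hzz]; group
          _ = u * (z * u) * (c * c) := by rw [hcu]
          _ = (u * z) * u * (c * c) := by group
          _ = (z * u) * u * (c * c) := by rw [← h.central u hu]
          _ = z * (u * u) * (c * c) := by group
          _ = _ := by rw [huu, mul_one]
      rw [h2] at hsq
      apply hz1
      exact mul_right_cancel (b := c * c) (by rw [hsq, one_mul])
  -- commuting with E
  have hall : ∀ w : G, (w * c = c * w) → (∀ p ∈ E, p * u = u * p → w * p = p * w) → ∀ q ∈ E, w * q = q * w := by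
    intro w hwc hwp q hq
    by_cases hqu : q * u = u * q
    · exact hwp q hq hqu
    · have h1 := h.coset hu hc hq hcu' hqu
      have h2 := hwp _ (mul_mem (inv_mem hc) hq) h1
      calc w * q = w * (c * (c⁻¹ * q)) := by group
        _ = (w * c) * (c⁻¹ * q) := by group
        _ = c * (w * (c⁻¹ * q)) := by rw [hwc]; group
        _ = c * ((c⁻¹ * q) * w) := by rw [h2]
        _ = q * w := by group
  rcases hr12 with h1 | h1
  · have hyc1 : y * c = c * y := by
      have h2 : y * c * y⁻¹ = c := by rw [hcyr, h1, one_mul]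
      calc y * c = (y * c * y⁻¹) * y := by group
        _ = c * y := by rw [h2]
    rcases h.cent y (hall y hyc1 hyc) with h2 | h2
    · exact Or.inl h2
    · exact Or.inr (Or.inl h2)
  · -- `y u` centralizes `E`
    have huc : u * c * u⁻¹ = z * c := by
      have h2 : u * c * u⁻¹ * c⁻¹ = z := by
        have h3 : c * u * c⁻¹ * u⁻¹ = z := by rw [hcu]; group
        exact h.inv_comm hc hu h3
      calc u * c * u⁻¹ = (u * c * u⁻¹ * c⁻¹) * c := by group
        _ = z * c := by rw [h2]
    have hw1 : (y * u) * c = c * (y * u) := by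
      have h2 : y * c * y⁻¹ = z * c := by rw [hcyr, h1]
      have h3 : y * (z * c) * y⁻¹ = z * (y * c * y⁻¹) := by
        calc y * (z * c) * y⁻¹ = (y * z) * c * y⁻¹ := by group
          _ = (z * y) * c * y⁻¹ := by rw [hyz]
          _ = _ := by group
      have h4 : (y * u) * c * (y * u)⁻¹ = c := by
        calc (y * u) * c * (y * u)⁻¹ = y * (u * c * u⁻¹) * y⁻¹ := by group
          _ = y * (z * c) * y⁻¹ := by rw [huc]
          _ = z * (y * c * y⁻¹) := h3
          _ = z * (z * c) := by rw [h2]
          _ = c := by rw [← mul_assoc, hzz, one_mul]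
      calc (y * u) * c = ((y * u) * c * (y * u)⁻¹) * (y * u) := by group
        _ = c * (y * u) := by rw [h4]
    have hw2 : ∀ p ∈ E, p * u = u * p → (y * u) * p = p * (y * u) := by
      intro p hp hpu
      calc y * u * p = y * (u * p) := by group
        _ = y * (p * u) := by rw [hpu]
        _ = (y * p) * u := by group
        _ = (p * y) * u := by rw [hyc p hp hpu]
        _ = p * (y * u) := by group
    rcases h.cent (y * u) (hall _ hw1 hw2) with h2 | h2
    · right; right; left
      calc y = y * u * u⁻¹ := by group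
        _ = u := by rw [h2, one_mul, hui]
    · right; right; right
      calc y = y * u * u⁻¹ := by group
        _ = z * u := by rw [h2, hui]

/-- With `|P| ≥ 32`, the centralizer of an involution `v ≠ u` of `P` is nonabelian. -/
theorem exists_comm_of_big [Finite G] {u : G} {P : Subgroup G} (h : LX u P) {v : G} (hv : v ∈ P) (hvv : v * v = 1)
    (hv1 : v ≠ 1) (hvu : v ≠ u) (hcard : 32 ≤ Nat.card P) :
    ∃ a ∈ P, ∃ b ∈ P, a * v = v * a ∧ b * v = v * b ∧ a * b * a⁻¹ * b⁻¹ = u := by
  classical
  have hu1 := h.ne_one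
  obtain ⟨w, hw, hwv⟩ := h.exists_comm hv hv1 hvu
  have hwv' : ¬ (w * v = v * w) := by
    intro h'
    have : w * v * w⁻¹ = v := by rw [h']; group
    rw [this] at hwv
    apply hu1
    have h2 : u * v * v⁻¹ = v * v⁻¹ := by rw [← hwv]
    simpa using h2
  set A : Subgroup G := P ⊓ Subgroup.centralizer ({v} : Set G) with hA
  have memA : ∀ a, a ∈ A ↔ a ∈ P ∧ a * v = v * a := by
    intro a
    rw [hA, Subgroup.mem_inf, Subgroup.mem_centralizer_iff]
    simp only [Set.mem_singleton_iff, forall_eq]
    exact and_congr_right (fun _ => eq_comm)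
  have hAidx : (A.subgroupOf P).index = 2 := by
    apply index_two_of hw
    · rw [memA]; exact fun h => hwv' h.2
    · intro q hq hqA
      rw [memA]
      refine ⟨mul_mem (inv_mem hw) hq, ?_⟩
      apply h.coset hv hw hq hwv'
      intro h2
      exact hqA ((memA q).2 ⟨hq, h2⟩)
  have hAcard : Nat.card A * 2 = Nat.card P := card_of_index_two (inf_le_left) hAidx
  have hbig : ∃ a ∈ P, a * v = v * a ∧ a ≠ 1 ∧ a ≠ u ∧ a ≠ v ∧ a ≠ u * v := by
    by_contra hcon
    push Not at hcon
    have : Nat.card A ≤ 4 := by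
      apply card_le_four_of_le (a := 1) (b := u) (c := v) (d := u * v)
      intro a ha
      obtain ⟨h1, h2⟩ := (memA a).1 ha
      by_contra h3
      push Not at h3
      exact h3.2.2.2 (hcon a h1 h2 h3.1 h3.2.1 h3.2.2.1)
    omega
  obtain ⟨a, ha, hav, ha1, hau, hav', hauv⟩ := hbig
  have hmem := mem_closure_pair h.sq hvv (h.central v hv).symm
  have haY : a ∉ Subgroup.closure ({u, v} : Set G) := by
    rw [hmem]
    rintro (h1 | h1 | h1 | h1)
    · exact ha1 h1
    · exact hau h1
    · exact hav' h1
    · exact hauv h1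
  have hYP : Subgroup.closure ({u, v} : Set G) ≤ P := by
    rw [Subgroup.closure_le]
    rintro _ (rfl | rfl)
    · exact h.mem
    · exact hv
  obtain ⟨q, hq, hq1, hq2⟩ := h.toSettingAt.exists_centralizing _ hYP
    (Subgroup.subset_closure (by simp)) ha haY
  refine ⟨q, hq, a, ha, hq1 v (Subgroup.subset_closure (by simp)), hav, ?_⟩
  rw [hq2]; group

/-- Given a subgroup `K` of index two in `H ≥ E`, `|E| ≥ 32`, with `E ≰ K`, there is an involution of `E` outside `K`. -/
theorem exists_invol_not_mem [Finite G] {z : G} {E H K : Subgroup G} (h : LX z E) (hcard : 32 ≤ Nat.card E) (hEH : E ≤ H)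
    (hmul : ∀ a ∈ H, ∀ b ∈ H, a * b ∈ K ↔ (a ∈ K ↔ b ∈ K)) (hEK : ¬ E ≤ K) : ∃ u ∈ E, u ∉ K ∧ u * u = 1 := by
  classical
  obtain ⟨a, haE, haK⟩ := SetLike.not_le_iff_exists.1 hEK
  by_contra hno
  push Not at hno
  have hsqz : ∀ q ∈ E, q ∉ K → q * q = z := by
    intro q hq hqK
    rcases h.sq_mem q hq with h1 | h1
    · exact absurd h1 (hno q hq hqK)
    · exact h1
  have hzz := h.sq
  have hz1 := h.ne_one
  have hout : ∀ q ∈ E, q ∉ K → ∀ b ∈ E, b ∈ K → q * b ∉ K := by
    intro q hq hqK b hb hbK h1
    have := (hmul q (hEH hq) b (hEH hb)).1 h1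
    exact hqK (this.2 hbK)
  have hinv : ∀ b ∈ E, b ∈ K → a⁻¹ * b * a = b⁻¹ := by
    intro b hb hbK
    have h1 := hsqz _ (mul_mem haE hb) (hout a haE haK b hb hbK)
    have h2 := hsqz a haE haK
    have h3 : a * b * (a * b) = a * a := by rw [h1, h2]
    have h4 : b * (a * b) = a := by
      have : a * (b * (a * b)) = a * a := by rw [← h3]; group
      exact mul_left_cancel this
    have h5 : (a⁻¹ * b * a) * b = 1 := by
      calc (a⁻¹ * b * a) * b = a⁻¹ * (b * (a * b)) := by group
        _ = 1 := by rw [h4]; group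
    exact eq_inv_of_mul_eq_one_left h5
  have habel : ∀ b ∈ E, b ∈ K → ∀ c ∈ E, c ∈ K → b * c = c * b := by
    intro b hb hbK c hc hcK
    have hbcK : b * c ∈ K := mul_mem hbK hcK
    have h1 := hinv _ (mul_mem hb hc) hbcK
    have h2 : a⁻¹ * (b * c) * a = (a⁻¹ * b * a) * (a⁻¹ * c * a) := by group
    rw [h2, hinv b hb hbK, hinv c hc hcK, mul_inv_rev] at h1
    have h3 : (b⁻¹ * c⁻¹)⁻¹ = (c⁻¹ * b⁻¹)⁻¹ := by rw [h1]
    simpa using h3.symm
  -- noncommuting with `a`
  have hna : ∀ x ∈ E, x ∈ K → x ≠ 1 → x ≠ z → a * x * a⁻¹ = z * x := by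
    intro x hx hxK hx1 hxz
    obtain ⟨q, hq, hqx⟩ := h.exists_comm hx hx1 hxz
    have hqnc : ¬ (q * x = x * q) := by
      intro h1
      have h2 : q * x * q⁻¹ = x := by rw [h1]; group
      rw [h2] at hqx
      apply hz1
      have h3 : z * x * x⁻¹ = x * x⁻¹ := by rw [← hqx]
      simpa using h3
    have hqK : q ∉ K := fun h1 => hqnc (habel q hq h1 x hx hxK)
    have h4 : a⁻¹ * q ∈ K := by
      have h5 := (hmul a⁻¹ (inv_mem (hEH haE)) q (hEH hq)).2
      apply h5
      constructor
      · intro h6; exact absurd (by simpa using inv_mem h6) haK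
      · intro h6; exact absurd h6 hqK
    have h7 : (a⁻¹ * q) * x = x * (a⁻¹ * q) := habel _ (mul_mem (inv_mem haE) hq) h4 x hx hxK
    rcases h.act haE hx with h1 | h1
    · exfalso
      apply hqnc
      have h8 : a * x = x * a := by
        calc a * x = (a * x * a⁻¹) * a := by group
          _ = x * a := by rw [h1]
      calc q * x = a * ((a⁻¹ * q) * x) := by group
        _ = a * (x * (a⁻¹ * q)) := by rw [h7]
        _ = (a * x) * (a⁻¹ * q) := by group
        _ = (x * a) * (a⁻¹ * q) := by rw [h8]
        _ = x * q := by group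
    · exact h1
  -- count
  set B : Subgroup G := E ⊓ K with hB
  have hBidx : (B.subgroupOf E).index = 2 := by
    apply index_two_of haE
    · exact fun h1 => haK h1.2
    · intro q hq hqB
      have hqK : q ∉ K := fun h1 => hqB ⟨hq, h1⟩
      refine Subgroup.mem_inf.2 ⟨mul_mem (inv_mem haE) hq, ?_⟩
      apply (hmul a⁻¹ (inv_mem (hEH haE)) q (hEH hq)).2
      constructor
      · intro h6; exact absurd (by simpa using inv_mem h6) haK
      · intro h6; exact absurd h6 hqK
  have hBcard : Nat.card B * 2 = Nat.card E := card_of_index_two inf_le_left hBidx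
  have hle4 : Nat.card B ≤ 4 := by
    by_cases hex : ∃ x ∈ E, x ∈ K ∧ x ≠ 1 ∧ x ≠ z
    · obtain ⟨x, hx, hxK, hx1, hxz⟩ := hex
      apply card_le_four_of_le (a := 1) (b := z) (c := x⁻¹) (d := x⁻¹ * z)
      intro w hw
      obtain ⟨hwE, hwK⟩ := hw
      by_cases hw1 : w = 1
      · exact Or.inl hw1
      by_cases hwz : w = z
      · exact Or.inr (Or.inl hwz)
      right; right
      have h1 := hna x hx hxK hx1 hxz
      have h2 := hna w hwE hwK hw1 hwz
      have hcz : w * z = z * w := h.central w hwE
      have hxw : x * w ∈ E := mul_mem hx hwE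
      have hxwK : x * w ∈ K := mul_mem hxK hwK
      have h3 : a * (x * w) * a⁻¹ = x * w := by
        calc a * (x * w) * a⁻¹ = (a * x * a⁻¹) * (a * w * a⁻¹) := by group
          _ = z * x * (z * w) := by rw [h1, h2]
          _ = z * (x * z) * w := by group
          _ = z * (z * x) * w := by rw [h.central x hx]
          _ = x * w := by rw [← mul_assoc, hzz, one_mul]
      by_cases h4 : x * w = 1
      · left
        exact (eq_inv_of_mul_eq_one_right h4)
      by_cases h5 : x * w = z
      · right
        calc w = x⁻¹ * (x * w) := by group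
          _ = x⁻¹ * z := by rw [h5]
      exfalso
      have h6 := hna _ hxw hxwK h4 h5
      rw [h3] at h6
      apply hz1
      have h7 : z * (x * w) * (x * w)⁻¹ = (x * w) * (x * w)⁻¹ := by rw [← h6]
      have h8 : z * (x * w) * (x * w)⁻¹ = z := by group
      rw [h8] at h7
      rw [h7]; group
    · push Not at hex
      apply card_le_four_of_le (a := 1) (b := z) (c := 1) (d := 1)
      intro w hw
      by_cases hw1 : w = 1
      · exact Or.inl hw1
      · exact Or.inr (Or.inl (hex w hw.1 hw.2 hw1))
  omega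

end Cfsg.Agent.Lib.LocalStruct.LxExtra
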