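import Mathlib
import Cfsg.Agent.Lib.LocalStruct.LxExtra
import Cfsg.Agent.Lib.LocalStruct.ThompsonIdx
import Cfsg.Agent.Lib.Transfer.Basic

/-!
Thompson transfer applied to a large extraspecial subgroup: `E ≤ K` for every subgroup `K` of index two of `C(z)`.
-/

set_option autoImplicit false
set_option linter.unusedSectionVars false
set_option linter.unusedVariables false
set_option linter.style.longLine false
set_option linter.unusedSimpArgs false
set_option linter.unnecessarySimpa false

namespace Cfsg.Agent.Lib.LocalStruct.LxTransfer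

open Cfsg.Agent.Lib.LargeExtra.Basic Cfsg.Agent.Lib.LargeExtra.Pair
open Cfsg.Agent.Lib.LocalStruct.LxExtra Cfsg.Agent.Lib.LocalStruct.ThompsonIdx

variable {G : Type*} [Group G] [Finite G]

theorem isPGroup_units : IsPGroup 2 ℤˣ := by
  refine IsPGroup.of_card (n := 1) ?_
  rw [Nat.card_eq_fintype_card]
  decide

/-- No hom to `ℤˣ` from a `2`-perfect group. -/
theorem hom_trivial (hres : Cfsg.pResidual 2 G = ⊤) (f : G →* ℤˣ) (g : G) : f g = 1 :=
  Cfsg.Agent.Lib.Transfer.Basic.map_eq_one_of_pResidual_eq_top hres isPGroup_units f g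

theorem mem_cz {z a : G} : a ∈ Subgroup.centralizer ({z} : Set G) ↔ a * z = z * a := by
  rw [Subgroup.mem_centralizer_iff]
  simp only [Set.mem_singleton_iff, forall_eq]
  exact eq_comm

/-- The centralizer of `z` has odd index. -/
theorem not_two_dvd_index {z : G} {E : Subgroup G} (h : LX z E) : ¬ 2 ∣ (Subgroup.centralizer ({z} : Set G)).index := by
  haveI hF : Fact (Nat.Prime 2) := ⟨Nat.prime_two⟩
  obtain ⟨S, hES⟩ := h.isPGroup.exists_le_sylow
  have hzS : z ∈ (S : Subgroup G) := hES h.mem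
  haveI : Nontrivial ↥(S : Subgroup G) := by
    refine ⟨⟨⟨z, hzS⟩, 1, fun h1 => h.ne_one (congrArg Subtype.val h1)⟩⟩
  have hcen := S.isPGroup'.center_nontrivial
  obtain ⟨c, hc1⟩ := exists_ne (1 : Subgroup.center ↥(S : Subgroup G))
  have hcm := Subgroup.mem_center_iff.1 c.2
  have hcE : ∀ a ∈ E, ((c : ↥(S : Subgroup G)) : G) * a = a * ((c : ↥(S : Subgroup G)) : G) := by
    intro a ha
    have := hcm ⟨a, hES ha⟩
    exact (congrArg Subtype.val this).symm
  have hcz : ((c : ↥(S : Subgroup G)) : G) = z := by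
    rcases h.cent _ hcE with h1 | h1
    · exfalso
      apply hc1
      apply Subtype.ext
      apply Subtype.ext
      simpa using h1
    · exact h1
  have hle : (S : Subgroup G) ≤ Subgroup.centralizer ({z} : Set G) := by
    intro a ha
    rw [mem_cz, ← hcz]
    have := hcm ⟨a, ha⟩
    exact congrArg Subtype.val this
  intro hd
  exact S.not_dvd_index (hd.trans (Subgroup.index_dvd_of_le hle))

/-- Commutators lie in a subgroup of index two. -/
theorem comm_mem {H K : Subgroup G} (hK : K.relIndex H = 2) {a b : G} (ha : a ∈ H) (hb : b ∈ H) :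
    a * b * a⁻¹ * b⁻¹ ∈ K := by
  have h1 := mul_mem_iff hK (mul_mem (mul_mem ha hb) (inv_mem ha)) (inv_mem hb)
  have h2 := mul_mem_iff hK (mul_mem ha hb) (inv_mem ha)
  have h3 := mul_mem_iff hK ha hb
  have h4 : a⁻¹ ∈ K ↔ a ∈ K := K.inv_mem_iff
  have h5 : b⁻¹ ∈ K ↔ b ∈ K := K.inv_mem_iff
  rw [h1, h2, h3, h4, h5]
  by_cases ha' : a ∈ K <;> by_cases hb' : b ∈ K <;> simp [ha', hb']

/-- The main fact: `E ≤ K`. -/
theorem le_of_relIndex (hG : ∀ (f : G →* ℤˣ) (g : G), f g = 1) {z : G} {E K : Subgroup G} (h : LX z E)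
    (hcard : 32 ≤ Nat.card E) (hKH : K ≤ Subgroup.centralizer ({z} : Set G))
    (hK : K.relIndex (Subgroup.centralizer ({z} : Set G)) = 2) : E ≤ K := by
  classical
  by_contra hEK
  have hEH : E ≤ Subgroup.centralizer ({z} : Set G) := fun a ha => mem_cz.2 (h.central a ha)
  have hodd := not_two_dvd_index h
  have hzz := h.sq
  have hz1 := h.ne_one
  -- `z ∈ K`
  have hzK : z ∈ K := by
    have hex : ∃ v ∈ E, v ≠ 1 ∧ v ≠ z := by
      by_contra hcon
      push Not at hcon
      have : Nat.card E ≤ 4 := by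
        apply card_le_four_of_le (a := 1) (b := z) (c := 1) (d := 1)
        intro w hw
        by_cases hw1 : w = 1
        · exact Or.inl hw1
        · exact Or.inr (Or.inl (hcon w hw hw1))
      omega
    obtain ⟨v, hv, hv1, hvz⟩ := hex
    obtain ⟨q, hq, hqv⟩ := h.exists_comm hv hv1 hvz
    have h1 := comm_mem hK (hEH hq) (hEH hv)
    have h2 : q * v * q⁻¹ * v⁻¹ = z := by rw [hqv]; group
    rwa [h2] at h1
  obtain ⟨u, huE, huK, huu⟩ := exists_invol_not_mem h hcard hEH (fun a ha b hb => mul_mem_iff hK ha hb) hEK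
  have hu1 : u ≠ 1 := fun h1 => huK (h1 ▸ one_mem _)
  have huz : u ≠ z := fun h1 => huK (h1 ▸ hzK)
  -- Thompson
  have hP : IsPGroup 2 ↥(E ⊓ Subgroup.centralizer ({u} : Set G)) :=
    h.isPGroup.to_le inf_le_left
  obtain ⟨g, hg1, hg2⟩ := exists_conj_mem hG hodd hKH hK (x := u) 1 (by rw [pow_one, pow_two, huu])
    (by
      intro k hk1 hk2 c hc
      have hk3 : k = 2 := by
        rw [pow_one] at hk2
        rcases (Nat.dvd_prime Nat.prime_two).1 hk2 with h1 | h1
        · exact absurd h1 hk1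
        · exact h1
      subst hk3
      have : c⁻¹ * u ^ 2 * c = 1 := by rw [pow_two, huu]; group
      rw [this]; exact one_mem _)
    (E ⊓ Subgroup.centralizer ({u} : Set G)) hP
    (by
      intro p hp
      exact mem_cz.1 hp.2)
  set y := g * z * g⁻¹ with hy
  have hyP : ∀ p ∈ E, p * u = u * p → y * p = p * y := by
    intro p hp hpu
    have h1 : g⁻¹ * p * g ∈ Subgroup.centralizer ({z} : Set G) := hg2 p (Subgroup.mem_inf.2 ⟨hp, mem_cz.2 hpu⟩)
    have h2 := mem_cz.1 h1
    calc y * p = g * (z * (g⁻¹ * p * g)) * g⁻¹ := by rw [hy]; group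
      _ = g * ((g⁻¹ * p * g) * z) * g⁻¹ := by rw [h2]
      _ = p * y := by rw [hy]; group
  have hyz : y * z = z * y := hyP z h.mem (h.central u huE).symm
  have hyne : y ≠ z := by
    intro h1
    have hgz : g * z = z * g := by
      calc g * z = (g * z * g⁻¹) * g := by group
        _ = z * g := by rw [← hy, h1]
    have hgH : g ∈ Subgroup.centralizer ({z} : Set G) := mem_cz.2 hgz
    exact huK ((conj_mem_iff hK (hEH huE) hgH).1 hg1)
  have hy1 : y ≠ 1 := (h.conj g).ne_one
  have huyK : y ∉ K ∧ y ∈ E := by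
    rcases centralizer_cent h huE huu hu1 huz hyz hyP with h1 | h1 | h1 | h1
    · exact absurd h1 hy1
    · exact absurd h1 hyne
    · rw [h1]; exact ⟨huK, huE⟩
    · rw [h1]
      refine ⟨fun h2 => huK ?_, mul_mem h.mem huE⟩
      have : u = z⁻¹ * (z * u) := by group
      rw [this]
      exact mul_mem (inv_mem hzK) h2
  have hLX' : LX y (E.map (MulAut.conj g).toMonoidHom) := h.conj g
  have hzE' : z ∈ E.map (MulAut.conj g).toMonoidHom := z_mem h hLX' rfl rfl huyK.2 hyne hcard
  have hcard' : 32 ≤ Nat.card (E.map (MulAut.conj g).toMonoidHom) := by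
    rw [Subgroup.card_map_of_injective (MulAut.conj g).injective]
    exact hcard
  obtain ⟨a, ha, b, hb, haz, hbz, hab⟩ := exists_comm_of_big hLX' hzE' hzz hz1 hyne.symm hcard'
  have h1 := comm_mem hK (mem_cz.2 haz) (mem_cz.2 hbz)
  rw [hab] at h1
  exact huyK.1 h1

end Cfsg.Agent.Lib.LocalStruct.LxTransfer
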